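/- Elementary abelian 3-subgroups of projective groups of degree at most 3 in characteristic not 3. -/
import Mathlib
import Cfsg.Agent.KSG.GLnDiag

set_option autoImplicit false

namespace CL.Hay

open Subgroup Module Polynomial

theorem card_le_nine {H K V : Type*} [Group H] [Finite H] [Field K] [IsAlgClosed K] [AddCommGroup V] [Module K V]
    [FiniteDimensional K V] (h3 : (3 : K) ≠ 0) {m : ℕ} (hm : m ≤ 2) (hV : finrank K V = m + 1)
    (ρ : H →* Module.End K V) (hρ : Function.Injective ρ) (hZ : ∀ z ∈ center H, ∃ c : K, ρ z = c • 1)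
    (E : Subgroup (H ⧸ center H)) (hc : ∀ x ∈ E, ∀ y ∈ E, x * y = y * x) (he : ∀ x ∈ E, x ^ 3 = 1) :
    Nat.card E ≤ 9 := by
  have sc : ∀ g (c : K), ρ g = c • 1 → (g : H ⧸ center H) = 1 := fun g c e =>
    (QuotientGroup.eq_one_iff _).2 (mem_center_iff.2 fun a => hρ (by simp [e]))
  have nz : ∀ g {v : V}, v ≠ 0 → ρ g v ≠ 0 := fun g v hv e => hv (by
    rw [← Module.End.one_apply (R := K) v, ← map_one ρ, ← inv_mul_cancel g, map_mul, Module.End.mul_apply, e, map_zero])
  have : Nontrivial V := Module.nontrivial_of_finrank_eq_succ hV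
  have cube : ∀ g : H, (g : H ⧸ center H) ∈ E → ∃ c : K, c ≠ 0 ∧ ρ g ^ 3 = c • 1 := fun g hg => by
    obtain ⟨c, e⟩ := hZ _ ((QuotientGroup.eq_one_iff (g ^ 3)).1 (he _ hg))
    obtain ⟨v, hv⟩ := exists_ne (0 : V)
    exact ⟨c, by rintro rfl; exact nz _ hv (by rw [e]; simp), by rw [← map_pow, e]⟩
  have hμ : Nat.card {x : K // x ^ 3 = 1} ≤ 3 := by
    classical
    rw [Nat.subtype_card (nthRootsFinset 3 (1 : K)) fun _ => mem_nthRootsFinset (by decide) 1]
    exact (Multiset.toFinset_card_le _).trans (card_nthRoots _ _)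
  have : Finite {x : K // x ^ 3 = 1} := by
    classical
    exact (Set.Finite.subset (nthRootsFinset 3 (1 : K)).finite_toSet fun _ => (mem_nthRootsFinset (by decide) 1).2).to_subtype
  have bd : ∀ f : E → Fin m → {x : K // x ^ 3 = 1}, Function.Injective f → Nat.card E ≤ 9 := fun f hf => by
    refine (Nat.card_le_card_of_injective f hf).trans ?_
    rw [Nat.card_fun, Nat.card_eq_fintype_card (α := Fin m), Fintype.card_fin]
    exact (Nat.pow_le_pow_left hμ _).trans (Nat.pow_le_pow_right (by decide) hm)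
  have cm : ∀ a b : H, (a : H ⧸ center H) ∈ E → (b : H ⧸ center H) ∈ E →
      ∃ c : K, c ^ 3 = 1 ∧ ρ a * ρ b = c • (ρ b * ρ a) := fun a b ha hb => by
    obtain ⟨c, e⟩ := hZ (a * b * (b * a)⁻¹) ((QuotientGroup.eq_one_iff _).1 (by
      simp only [QuotientGroup.mk_mul, QuotientGroup.mk_inv, hc _ ha _ hb, mul_inv_cancel]))
    have e1 : ρ a * ρ b = c • (ρ b * ρ a) := by
      rw [← map_mul, ← map_mul, ← inv_mul_cancel_right (a * b) (b * a), map_mul, e]; simp
    obtain ⟨d, hd, e2⟩ := cube a ha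
    obtain ⟨v, hv⟩ := exists_ne (0 : V)
    have e3 : ρ a ^ 3 * ρ b = c ^ 3 • (ρ b * ρ a ^ 3) := by
      have e4 : ∀ x, ρ a * (ρ b * x) = c • (ρ b * (ρ a * x)) := fun x => by
        rw [← mul_assoc, e1, smul_mul_assoc, mul_assoc]
      simp only [pow_succ, pow_zero, one_mul, mul_assoc, e1, e4, mul_smul_comm, smul_smul]
    refine ⟨c, smul_left_injective K (nz b (smul_ne_zero hd hv)) ?_, e1⟩
    simpa [e2] using (congrArg (· v) e3).symm
  by_cases hab : ∀ a b : E.comap (QuotientGroup.mk' _), Commute (ρ a) (ρ b)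
  · obtain ⟨b, χ, h⟩ := CL.GLn.exists_basis_eigenvectors (fun a : E.comap (QuotientGroup.mk' _) => ρ a) hab fun a => by
      obtain ⟨c, h0, e⟩ := cube a a.2
      refine (Module.End.isSemisimple_of_squarefree_aeval_eq_zero (p := X ^ 3 - C c)
        (separable_X_pow_sub_C c (by exact_mod_cast h3) h0).squarefree ?_).iSup_eigenspace_eq_top
      simp [e, Algebra.algebraMap_eq_smul_one]
    revert b χ
    rw [hV]
    intro b χ h
    have h0 : ∀ k a, χ k a ≠ 0 := fun k a e => nz a (b.ne_zero k) (by rw [h, e, zero_smul])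
    have h1 : ∀ k a, (χ k a / χ 0 a) ^ 3 = 1 := fun k a => by
      obtain ⟨c, hc, e⟩ := cube a a.2
      have : ∀ k, χ k a ^ 3 = c := fun k => smul_left_injective K (b.ne_zero k) (by
        simpa [pow_succ, h, smul_smul, mul_assoc] using congrArg (· (b k)) e)
      rw [div_pow, this, this, div_self hc]
    let o : E → E.comap (QuotientGroup.mk' _) := fun x => ⟨x.1.out, by simp⟩
    refine bd (fun x k => ⟨_, h1 k.succ (o x)⟩) fun x y e => Subtype.ext ?_
    have h2 : ∀ k, χ k (o x) = χ 0 (o x) / χ 0 (o y) * χ k (o y) := fun k => by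
      have := h0 0 (o x)
      have := h0 0 (o y)
      rcases Fin.eq_zero_or_eq_succ k with rfl | ⟨k, rfl⟩
      · field_simp
      · have := congrArg Subtype.val (congrFun e k)
        field_simp at this ⊢
        linear_combination this
    have := sc ((o x).1 * (o y).1⁻¹) (χ 0 (o x) / χ 0 (o y)) (by
      have h4 : ρ (o x) = (χ 0 (o x) / χ 0 (o y)) • ρ (o y) := b.ext fun k => by
        rw [LinearMap.smul_apply, h, h, smul_smul, ← h2]
      rw [map_mul, h4, smul_mul_assoc, ← map_mul, mul_inv_cancel, map_one])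
    simpa [o, mul_inv_eq_one] using this
  push Not at hab
  obtain ⟨⟨a, ha⟩, ⟨b, hb⟩, hab⟩ := hab
  obtain ⟨ω, hω, e⟩ := cm a b ha hb
  have hω1 : ω ≠ 1 := by rintro rfl; exact hab (e.trans (one_smul _ _))
  have key : ∀ g : H, Commute (ρ g) (ρ a) → Commute (ρ g) (ρ b) → m = 2 ∧ (g : H ⧸ center H) = 1 := fun g ga gb => by
    obtain ⟨l, hl⟩ := Module.End.exists_eigenvalue (ρ a)
    have := Submodule.nontrivial_iff_ne_bot.2 hl
    obtain ⟨μ, hμ⟩ := Module.End.exists_eigenvalue ((ρ g).restrict (Module.End.mapsTo_genEigenspace_of_comm ga.symm l 1))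
    obtain ⟨⟨v, hv⟩, h1, h2⟩ := hμ.exists_hasEigenvector
    have h4 : ρ g v = μ • v := congrArg Subtype.val (Module.End.mem_eigenspace_iff.1 h1)
    have h5 : ρ a v = l • v := Module.End.mem_eigenspace_iff.1 hv
    have h6 : v ≠ 0 := fun e => h2 (Subtype.ext e)
    have hl0 : l ≠ 0 := by rintro rfl; exact nz a h6 (by rw [h5, zero_smul])
    have h7 : ∀ k : ℕ, ρ a (ρ (b ^ k) v) = (ω ^ k * l) • ρ (b ^ k) v := fun k => by
      induction k with
      | zero => simpa using h5
      | succ k ih =>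
        rw [pow_succ' b, map_mul, Module.End.mul_apply, ← Module.End.mul_apply, e, LinearMap.smul_apply,
          Module.End.mul_apply, ih, map_smul, smul_smul, pow_succ', mul_assoc]
    have ho : orderOf ω = 3 := orderOf_eq_prime hω hω1
    have li := Module.End.eigenvectors_linearIndependent' (ρ a) (fun k : Fin 3 => ω ^ (k : ℕ) * l)
      (fun i j e => Fin.ext (pow_injOn_Iio_orderOf (by rw [ho]; exact i.2) (by rw [ho]; exact j.2) (mul_right_cancel₀ hl0 e)))
      (fun k => ρ (b ^ (k : ℕ)) v) fun k => ⟨Module.End.mem_eigenspace_iff.2 (h7 k), nz _ h6⟩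
    have h8 : m = 2 := by have := li.fintype_card_le_finrank; simp [hV] at this; omega
    refine ⟨h8, sc g μ ((basisOfLinearIndependentOfCardEqFinrank li (by simp [hV, h8])).ext fun k => ?_)⟩
    rw [coe_basisOfLinearIndependentOfCardEqFinrank, map_pow, ← Module.End.mul_apply, (gb.pow_right _).eq,
      Module.End.mul_apply, h4, map_smul]; rfl
  obtain rfl := (key 1 (by simp) (by simp)).1
  have ho : ∀ x : E, ((x.1.out : H) : H ⧸ center H) ∈ E := fun x => by simp
  choose c1 c1e c1s using fun x : E => cm _ a (ho x) ha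
  choose c2 c2e c2s using fun x : E => cm _ b (ho x) hb
  refine bd (fun x => ![⟨_, c1e x⟩, ⟨_, c2e x⟩]) fun x y e => Subtype.ext ?_
  have aux : ∀ (u : H) (c : K), ρ x.1.out * ρ u = c • (ρ u * ρ x.1.out) → ρ y.1.out * ρ u = c • (ρ u * ρ y.1.out) →
      Commute (ρ (y.1.out⁻¹ * x.1.out)) (ρ u) := fun u c e1 e2 => by
    have e3 : ρ y.1.out⁻¹ * ρ y.1.out = 1 := by rw [← map_mul, inv_mul_cancel, map_one]
    have e4 : ρ y.1.out * ρ y.1.out⁻¹ = 1 := by rw [← map_mul, mul_inv_cancel, map_one]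
    calc _ = ρ y.1.out⁻¹ * (c • (ρ u * ρ y.1.out)) * ρ y.1.out⁻¹ * ρ x.1.out := by
          rw [map_mul, mul_assoc, e1]; simp [mul_assoc, e4]
      _ = _ := by rw [← e2, ← mul_assoc, e3, one_mul, map_mul, mul_assoc]
  have := (key _ (aux a _ (c1s x) ((show c1 x = c1 y from congrArg Subtype.val (congrFun e 0)) ▸ c1s y))
    (aux b _ (c2s x) ((show c2 x = c2 y from congrArg Subtype.val (congrFun e 1)) ▸ c2s y))).2
  simpa [inv_mul_eq_one, eq_comm] using this

end CL.Hay
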